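import Cfsg.Agent.H233.B3.Row3
import Cfsg.Agent.H68.MeetBase

/-!
# `Row3 2 T` from `MeetIn 2` of a normal subgroup `A` of `Aut T` with `A / Inn T` abelian and `Aut T / A` cyclic
(helper458, S5761)
-/

set_option autoImplicit false

namespace Cfsg.Agent.H458.B3

open Subgroup Cfsg.Agent.H233.B3 Cfsg.Agent.H68.MeetB

/-- Frattini: if `A / I` is abelian, the element separating a Sylow subgroup of `A` can be taken in `I`. -/
theorem exists_in_normal {p : ℕ} [Fact p.Prime] {A : Type*} [Group A] [Finite A] {I : Subgroup A} [I.Normal]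
    (hc : ∀ a b : A, a * b * a⁻¹ * b⁻¹ ∈ I) (hM : MeetIn p A) {R : Subgroup A} (hR : IsPGroup p R) :
    ∃ t ∈ I, ∀ y ∈ R, t * y * t⁻¹ ∈ R → y = 1 := by
  obtain ⟨P, hP⟩ := hR.exists_le_sylow
  obtain ⟨g, hg⟩ := hM P P.isPGroup'
  let B : Subgroup A := (P : Subgroup A) ⊔ I
  have hIB : I ≤ B := le_sup_right
  have hPB : (P : Subgroup A) ≤ B := le_sup_left
  have hBn : B.Normal := ⟨by
    intro b hb a
    have h1 : a * b * a⁻¹ = (a * b * a⁻¹ * b⁻¹) * b := by group
    rw [h1]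
    exact B.mul_mem (hIB (hc a b)) hb⟩
  have h1 := P.normalizer_sup_eq_top' hPB
  have h2 : g ∈ (⊤ : Subgroup A) := mem_top g
  rw [← h1] at h2
  obtain ⟨n, hn, b, hb, hnb⟩ := mem_sup_of_normal_right.1 h2
  obtain ⟨q, hq, i, hi, hqi⟩ := mem_sup_of_normal_right.1 hb
  refine ⟨i, hi, fun y hy hiy => hg y (hP hy) ?_⟩
  have h3 : g * y * g⁻¹ = n * (q * (i * y * i⁻¹) * q⁻¹) * n⁻¹ := by
    rw [← hnb, ← hqi]; group
  rw [h3]
  have h4 : q * (i * y * i⁻¹) * q⁻¹ ∈ (P : Subgroup A) :=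
    (P : Subgroup A).mul_mem ((P : Subgroup A).mul_mem hq (hP hiy)) ((P : Subgroup A).inv_mem hq)
  exact (mem_normalizer_iff.1 hn _).1 h4

/-- two elements of order two of a cyclic group are equal -/
theorem eq_of_sq {C : Type*} [Group C] [Finite C] [IsCyclic C] {a b : C} (ha : a * a = 1) (hb : b * b = 1)
    (ha1 : a ≠ 1) (hb1 : b ≠ 1) : a = b := by
  have hF : Fact (Nat.Prime 2) := ⟨Nat.prime_two⟩
  have e1 : a ^ 2 = 1 := by rw [pow_two]; exact ha
  have e3 : b ^ 2 = 1 := by rw [pow_two]; exact hb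
  obtain ⟨k, hk⟩ := Cfsg.Agent.H903.SylMeet.mem_zpowers_of_cyclic (p := 2) _ _ e1 ha1 e3
  rcases Int.even_or_odd' k with ⟨j, rfl | rfl⟩
  · exfalso
    apply hb1
    rw [← hk, zpow_mul]
    have : a ^ (2 : ℤ) = 1 := by exact_mod_cast e1
    rw [this, one_zpow]
  · rw [zpow_add, zpow_mul, zpow_one] at hk
    have : a ^ (2 : ℤ) = 1 := by exact_mod_cast e1
    rw [this, one_zpow, one_mul] at hk
    exact hk

/-- **Separation on the linear level.** -/
theorem row3_of_lin {T : Type*} [Group T] [Finite T] [IsSimpleGroup T] (hT : ¬ IsMulCommutative T)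
    {A : Subgroup (MulAut T)} (hAn : A.Normal)
    (hc : ∀ a ∈ A, ∀ b ∈ A, a * b * a⁻¹ * b⁻¹ ∈ (MulAut.conj : T →* MulAut T).range)
    (hM : MeetIn 2 A) {C : Type*} [Group C] [Finite C] [IsCyclic C] (π : C →* MulAut T)
    (hπ : ∀ x : MulAut T, ∃ a ∈ A, ∃ c : C, x = a * π c)
    (hn : ∀ Q : Subgroup T, IsPGroup 2 Q → 3 * Nat.card C < Q.index) : Row3 2 T := by
  have hF : Fact (Nat.Prime 2) := ⟨Nat.prime_two⟩
  have hfinA : Finite (MulAut T) := inferInstance
  have hIn : ((MulAut.conj : T →* MulAut T).range).Normal := ⟨by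
    rintro _ ⟨t, rfl⟩ g
    exact ⟨g t, (Cfsg.Agent.H903.SylMeet.conj_apply_aut g t).symm⟩⟩
  let I : Subgroup A := ((MulAut.conj : T →* MulAut T).range).subgroupOf A
  have hIn' : I.Normal := hIn.subgroupOf A
  -- the quotient
  let Q := MulAut T ⧸ A
  let ψ : C →* Q := (QuotientGroup.mk' A).comp π
  have hψ : Function.Surjective ψ := by
    intro y
    obtain ⟨x, rfl⟩ := QuotientGroup.mk_surjective y
    obtain ⟨a, ha, c, rfl⟩ := hπ x
    refine ⟨c, ?_⟩
    change (QuotientGroup.mk (π c) : Q) = _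
    rw [QuotientGroup.mk_mul, (QuotientGroup.eq_one_iff a).2 ha, one_mul]
  have hcyc : IsCyclic Q := isCyclic_of_surjective ψ hψ
  have hcardQ : Nat.card Q ≤ Nat.card C := Nat.card_le_card_of_surjective ψ hψ
  intro P hP
  have hR : IsPGroup 2 (P.subgroupOf A) := hP.comap_of_injective _ A.subtype_injective
  obtain ⟨t, ht, hsep⟩ := exists_in_normal (I := I) (fun a b => hc a a.2 b b.2) hM hR
  obtain ⟨s, hs⟩ := ht
  have hs' : MulAut.conj s = (t : MulAut T) := hs
  have hDA : ∀ y ∈ DD P s, y ∈ A → y = 1 := by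
    intro y hy hyA
    obtain ⟨h1, h2⟩ := mem_DD.1 hy
    rw [hs'] at h2
    have h3 := hsep ⟨y, hyA⟩ h1 h2
    exact congrArg Subtype.val h3
  let θ : DD P s →* Q := (QuotientGroup.mk' A).comp (DD P s).subtype
  have hθ : Function.Injective θ := by
    rw [injective_iff_map_eq_one]
    intro y hy
    exact Subtype.ext (hDA _ y.2 ((QuotientGroup.eq_one_iff _).1 hy))
  have hcard : Nat.card (DD P s) ≤ Nat.card C := (Nat.card_le_card_of_injective θ hθ).trans hcardQ
  refine g3_of_one hT hP s ?_ (lt_of_le_of_lt (Nat.mul_le_mul_left 3 hcard) (hn _ (inn_pgroup hT hP)))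
  intro y hy y' hy' h1 h1' h2 h2'
  have key : θ ⟨y, hy⟩ = θ ⟨y', hy'⟩ := by
    refine eq_of_sq ?_ ?_ ?_ ?_
    · rw [← map_mul]
      exact (congrArg θ (Subtype.ext h1)).trans (map_one θ)
    · rw [← map_mul]
      exact (congrArg θ (Subtype.ext h1')).trans (map_one θ)
    · intro h3
      exact h2 (congrArg Subtype.val (hθ (h3.trans (map_one θ).symm)))
    · intro h3
      exact h2' (congrArg Subtype.val (hθ (h3.trans (map_one θ).symm)))
  exact congrArg Subtype.val (hθ key)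

end Cfsg.Agent.H458.B3
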