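import Cfsg.Agent.H458.B3.LinLevel
import Cfsg.Agent.H728.Meet2.PsuB
import Cfsg.Agent.Schreier.PSU
import Cfsg.Agent.CpAut.Fix
import Cfsg.Agent.S0280
import Cfsg.Agent.S0283
import Cfsg.Agent.Lib.FieldAutCard
import Cfsg.Agent.LieRecognition.FieldSemilinear

/-!
# `Row3 2 (PSU n F q)`, `q` odd, `n ≥ 3` (helper458, S5761, task 2827), from `meetU` of helper728
-/

set_option autoImplicit false

namespace Cfsg.Agent.H458.B3Psu

open Module Matrix Subgroup Cfsg Cfsg.Agent.H68.MeetB Cfsg.Agent.H749 Cfsg.Agent.H728.Meet2 Cfsg.Agent.H458.B3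
open Cfsg.Agent.Schreier.PSU Cfsg.Agent.ClassicalGeometry.PSUAutCount

variable {F : Type} [Field F] [Fintype F] {q : ℕ}

/-- the kernel of `GU → Aut (PSU)` -/
theorem mem_ker_f₁ {n : ℕ} (hF : Fintype.card F = q ^ 2) (hn : 3 ≤ n) (A : GU n F q) :
    f₁ A = (1 : MulAut (PSU n F q)) ↔ ∃ c : F, c * c ^ q = 1 ∧ gm A = c • (1 : Matrix (Fin n) (Fin n) F) := by
  constructor
  · intro h
    have h1 : toAut (1 : GU n F q) (1 : F ≃+* F) = toAut A 1 := by
      change f₁ (1 : GU n F q) = f₁ A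
      rw [h, map_one]
    obtain ⟨-, c, hc, hA⟩ := eq_of_toAut_eq hF hn h1
    exact ⟨c, hc, by rw [hA, gm_one]⟩
  · rintro ⟨c, hc, hA⟩
    have h1 : A = sc n ⟨c, hc⟩ * 1 := by
      apply gm_inj
      rw [gm_sc_mul, gm_one, hA]
    have h2 : f₁ A = toAut (sc n ⟨c, hc⟩ * 1 : GU n F q) 1 := by rw [← h1]; rfl
    rw [h2, toAut_sc_mul]
    exact map_one f₁

/-- `MeetIn 2` for the linear automorphisms -/
theorem meet_range {n : ℕ} (hF : Fintype.card F = q ^ 2) (hq : Odd q) (hn : 3 ≤ n) :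
    MeetIn 2 (f₁ (F := F) (q := q) (n := n)).range := by
  have h2' : Fact (Nat.Prime 2) := ⟨Nat.prime_two⟩
  obtain ⟨m, ε, rfl, hε⟩ : ∃ m ε, n = 2 * m + ε ∧ ε < 2 := ⟨n / 2, n % 2, by omega, by omega⟩
  obtain ⟨σ, hσ⟩ := ClassicalGeometry.GUBasic.exists_powHom hF
  have hσ2 := sigma_sigma hF hσ
  obtain ⟨j, hj⟩ := (ff_hermF (m := m) (ε := ε) hσ2).exists_iso (sigma_ne hF hσ) hσ2 hσ (finrank_VV m ε)
  have hS : SimF j (hermForm (2 * m + ε) F q) (ff σ m ε) 1 := ⟨one_ne_zero, fun x y => by rw [one_mul]; exact hj x y⟩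
  let e : GU (2 * m + ε) F q ≃* Iso (ff σ m ε) := isoEquiv hS
  have he : ∀ A v, (e A : VV F m ε ≃ₗ[F] VV F m ε) v = j (gm A *ᵥ j.symm v) := fun A v => rfl
  let β : GU (2 * m + ε) F q →* Iso (ff σ m ε) ⧸ ZU σ m ε := (QuotientGroup.mk' (ZU σ m ε)).comp e.toMonoidHom
  have hβ : Function.Surjective β := (QuotientGroup.mk'_surjective _).comp e.surjective
  have hker : β.ker = (f₁ (F := F) (q := q) (n := 2 * m + ε)).ker := by
    ext A
    rw [MonoidHom.mem_ker, MonoidHom.mem_ker, mem_ker_f₁ hF hn]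
    have h1 : β A = 1 ↔ e A ∈ ZU σ m ε := QuotientGroup.eq_one_iff _
    rw [h1]
    have hex : ∀ c : F, (∀ v, (e A : VV F m ε ≃ₗ[F] VV F m ε) v = c • v) ↔
        gm A = c • (1 : Matrix (Fin (2 * m + ε)) (Fin (2 * m + ε)) F) := by
      intro c
      constructor
      · intro h
        apply Matrix.ext_of_mulVec_single
        intro i
        have h3 := h (j (Pi.single i 1))
        rw [he, LinearEquiv.symm_apply_apply, ← map_smul] at h3
        rw [j.injective h3, Matrix.smul_mulVec, Matrix.one_mulVec]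
      · intro h v
        rw [he, h, Matrix.smul_mulVec, Matrix.one_mulVec, map_smul, LinearEquiv.apply_symm_apply]
    constructor
    · rintro ⟨c, hc⟩
      have h3 := (hex c).1 hc
      refine ⟨c, ?_, h3⟩
      let i₀ : Fin (2 * m + ε) := ⟨0, by omega⟩
      have h4 := herm_gm A (Pi.single i₀ 1) (Pi.single i₀ 1)
      rw [h3, Matrix.smul_mulVec, Matrix.one_mulVec] at h4
      have hq0 : q ≠ 0 := by
        rintro rfl
        exact absurd hq (by decide)
      have h5 : ∀ a : F, hermForm (2 * m + ε) F q (a • Pi.single i₀ 1) (a • Pi.single i₀ 1) = a * a ^ q := by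
        intro a
        unfold hermForm
        rw [Finset.sum_eq_single i₀]
        · simp
        · intro b _ hb
          simp [hb, hq0]
        · simp
      rw [h5] at h4
      have h6 := h5 1
      rw [one_smul] at h6
      rw [h4, h6]
      simp
    · rintro ⟨c, -, hc⟩
      exact ⟨c, (hex c).2 hc⟩
  have hM := meetU (F := F) (σ := σ) (m := m) (ε := ε) hF hq hσ hn hε
  refine hM.congr ?_
  exact ((QuotientGroup.quotientKerEquivOfSurjective β hβ).symm.trans (QuotientGroup.quotientMulEquivOfEq hker)).trans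
    (QuotientGroup.quotientKerEquivRange f₁)

/-- **The row.** -/
theorem row2_psu {n : ℕ} (hF : Fintype.card F = q ^ 2) (hn : 3 ≤ n) (ho : Odd (Fintype.card F)) :
    Cfsg.Agent.H233.B3.Row3 2 (PSU n F q) := by
  have hq : Odd q := by
    rw [hF] at ho
    exact (Nat.odd_pow_iff two_ne_zero).1 ho
  have hs : IsSimpleGroup (PSU n F q) := S0283.result hF n hn (fun h => by
    rw [h.2] at hq
    exact absurd hq (by decide))
  have hfinF : Finite (F ≃+* F) := Finite.of_injective (fun φ : F ≃+* F => (φ : F → F)) DFunLike.coe_injective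
  have hcyc : IsCyclic (F ≃+* F) := LieRecognition.FieldSemilinear.isCyclic_ringAut F
  have hnc : ¬ IsMulCommutative (PSU n F q) := CpAut.Fix.not_comm_quot (H := SU n F q) (hs := hs)
  refine row3_of_lin hnc (A := (f₁ (F := F) (q := q) (n := n)).range) ?_ ?_ (meet_range hF hq hn)
    (C := F ≃+* F) f₂ ?_ ?_
  · constructor
    rintro _ ⟨a, rfl⟩ α
    obtain ⟨A, ρ, h⟩ := ClassicalGeometry.PSUAutMain.exists_toAut hF hn (fun h => by
      rw [h.2] at hq
      exact absurd hq (by decide)) α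
    rw [toAut_eq] at h
    refine ⟨A * mapGU ρ a * A⁻¹, ?_⟩
    rw [map_mul, map_mul, map_inv, ← conj_field, h]
    group
  · rintro _ ⟨a, rfl⟩ _ ⟨b, rfl⟩
    have := f₁_commutator a b
    rw [map_mul, map_mul, map_mul, map_inv, map_inv] at this
    exact this
  · intro x
    obtain ⟨A, ρ, h⟩ := ClassicalGeometry.PSUAutMain.exists_toAut hF hn (fun h => by
      rw [h.2] at hq
      exact absurd hq (by decide)) x
    exact ⟨f₁ A, ⟨A, rfl⟩, ρ, h.trans (toAut_eq A ρ)⟩
  · intro Q hQ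
    obtain ⟨p, f, hp, hf, hFp⟩ : ∃ p f : ℕ, p.Prime ∧ 1 ≤ f ∧ Fintype.card F = p ^ f := by
      obtain ⟨p, hp⟩ := CharP.exists F
      obtain ⟨f, hp', hf⟩ := FiniteField.card F p
      exact ⟨p, f, hp', f.pos, hf⟩
    have : Fact p.Prime := ⟨hp⟩
    rw [Lib.FieldAutCard.card_ringAut hf hFp]
    refine Cfsg.Agent.H233.B3.lt_index_of_dvd (m := q ^ 3) hq.pow ?_ ?_ hQ
    · have h := S0280.result hF n (by omega)
      have h1 : q ^ 3 ∣ Nat.gcd n (q + 1) * ((q + 1) * Nat.card (PSU n F q)) := by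
        rw [h]
        apply Dvd.dvd.mul_right
        apply pow_dvd_pow
        have : 3 * 2 ≤ n * (n - 1) := Nat.mul_le_mul hn (by omega)
        omega
      have h2 : Nat.Coprime (q ^ 3) (q + 1) := by
        apply Nat.Coprime.pow_left
        simp
      exact h2.dvd_of_dvd_mul_left ((h2.coprime_dvd_right (Nat.gcd_dvd_right n (q + 1))).dvd_of_dvd_mul_left h1)
    · -- `3 f < q ^ 3`
      have hp3 : 3 ≤ p := by
        have h1 := hp.two_le
        have h2 : p ≠ 2 := by
          rintro rfl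
          rw [hFp] at ho
          exact absurd ((Nat.odd_pow_iff (by omega)).1 ho) (by decide)
        omega
      have hq3 : 3 ≤ q := by
        have := ClassicalGeometry.GUBasic.two_le hF
        obtain ⟨k, hk⟩ := hq
        omega
      have h3 : f < 3 ^ f := Nat.lt_pow_self (by norm_num)
      have h4 : 3 ^ f ≤ q ^ 2 := by
        rw [← hF, hFp]
        exact Nat.pow_le_pow_left hp3 f
      calc 3 * f < 3 * 3 ^ f := by omega
        _ ≤ q * q ^ 2 := Nat.mul_le_mul hq3 h4
        _ = q ^ 3 := by ring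

end Cfsg.Agent.H458.B3Psu
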